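import Mathlib

/-! # Automorphisms trivial on a Sylow subgroup and modulo an abelian normal `p`-subgroup

`exists_inner` : `Z` an abelian normal `p`-subgroup of the finite group `G`, `α` an automorphism of `G` acting
trivially on `G / Z` and on a Sylow `p`-subgroup: `α` is conjugation by an element of `Z`. -/

set_option autoImplicit false

namespace Cfsg.Agent.H27.InnerCocycle

open Subgroup

variable {G : Type*} [Group G] [Finite G] {p : ℕ} [Fact p.Prime]

/-- An automorphism trivial on `G / Z` (`Z` an abelian normal `p`-subgroup) and on a Sylow `p`-subgroup is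
conjugation by an element of `Z`. -/
theorem exists_inner (T : Sylow p G) (Z : Subgroup G) (hZn : Z.Normal)
    (hZc : ∀ a ∈ Z, ∀ b ∈ Z, a * b = b * a) (hZp : IsPGroup p Z) (α : MulAut G)
    (hT : ∀ x ∈ (T : Subgroup G), α x = x) (hZ : ∀ g : G, α g * g⁻¹ ∈ Z) :
    ∃ z ∈ Z, ∀ x : G, α x = z * x * z⁻¹ := by
  classical
  let _ : CommGroup Z := { (inferInstance : Group Z) with
    mul_comm := fun a b => Subtype.ext (hZc a a.2 b b.2) }
  have : Fintype (G ⧸ (T : Subgroup G)) := Fintype.ofFinite _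
  let δ : G → Z := fun g => ⟨α g * g⁻¹, hZ g⟩
  -- the cocycle identity, with the conjugation action
  let cj : G → Z → Z := fun g z => ⟨g * z * g⁻¹, hZn.conj_mem z z.2 g⟩
  have cj_mul : ∀ (g : G) (a b : Z), cj g (a * b) = cj g a * cj g b := by
    intro g a b
    ext
    simp [cj]
  have hδ : ∀ g h : G, δ (g * h) = δ g * cj g (δ h) := by
    intro g h
    ext
    simp only [δ, cj, map_mul, Subgroup.coe_mul]
    group
  let cjh : G → (Z →* Z) := fun g => MonoidHom.mk' (cj g) (cj_mul g)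
  let f : G ⧸ (T : Subgroup G) → Z := fun q => Quotient.liftOn' q δ (by
    intro a b hab
    rw [QuotientGroup.leftRel_apply] at hab
    have h := hT _ hab
    have h2 : δ (a * (a⁻¹ * b)) = δ a := by
      rw [hδ]
      have : δ (a⁻¹ * b) = 1 := by
        ext
        simp only [δ, h, mul_inv_cancel, Subgroup.coe_one]
      rw [this]
      ext
      simp [cj]
    rw [mul_inv_cancel_left] at h2
    exact h2.symm)
  have hf : ∀ g : G, f (g : G ⧸ (T : Subgroup G)) = δ g := fun g => rfl
  have hfs : ∀ (g : G) (q : G ⧸ (T : Subgroup G)), cjh g (f q) = (δ g)⁻¹ * f (g • q) := by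
    intro g q
    induction q using QuotientGroup.induction_on with
    | H a =>
      change cj g (δ a) = (δ g)⁻¹ * δ (g * a)
      rw [hδ, inv_mul_cancel_left]
  set m : ℕ := (T : Subgroup G).index with hm
  have hcard : Fintype.card (G ⧸ (T : Subgroup G)) = m := by
    rw [hm, Subgroup.index_eq_card, Nat.card_eq_fintype_card]
  set w : Z := ∏ q, f q with hw
  have hwg : ∀ g : G, cjh g w = (δ g)⁻¹ ^ m * w := by
    intro g
    rw [hw, map_prod]
    simp_rw [hfs]
    rw [Finset.prod_mul_distrib, Finset.prod_const, Finset.card_univ, hcard]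
    congr 1
    exact Equiv.prod_comp (MulAction.toPerm g : Equiv.Perm (G ⧸ (T : Subgroup G))) f
  -- the inverse of `m` modulo `|Z|`
  have hcop : Nat.Coprime m (Nat.card Z) := by
    obtain ⟨k, hk⟩ := IsPGroup.iff_card.mp hZp
    rw [hk]
    have h1 : ¬ p ∣ m := T.not_dvd_index
    exact ((Nat.Prime.coprime_iff_not_dvd Fact.out).2 h1).symm.pow_right k
  obtain ⟨k, hk⟩ : ∃ k : ℕ, ∀ z : Z, (z ^ m) ^ k = z := by
    have : ∃ k : ℕ, m * k ≡ 1 [MOD Nat.card Z] := by
      obtain ⟨k, _, hk⟩ := Nat.exists_mul_mod_eq_of_coprime 1 hcop Nat.card_pos.ne'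
      exact ⟨k, hk⟩
    obtain ⟨k, hk⟩ := this
    refine ⟨k, fun z => ?_⟩
    rw [← pow_mul]
    have h1 : z ^ (m * k) = z ^ 1 := by
      rw [pow_eq_pow_iff_modEq]
      exact hk.of_dvd (orderOf_dvd_natCard z)
    rw [h1, pow_one]
  refine ⟨((w ^ k : Z) : G), (w ^ k).2, fun g => ?_⟩
  have h1 : (δ g) ^ m = w * (cjh g w)⁻¹ := by
    rw [hwg, mul_inv, inv_pow, inv_inv]
    rw [mul_comm w, mul_assoc, inv_mul_cancel, mul_one]
  have h2 : δ g = w ^ k * (cjh g (w ^ k))⁻¹ := by
    rw [← hk (δ g), h1, mul_pow, inv_pow, map_pow]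
  have h3 := congrArg (Subtype.val) h2
  have h4 : α g * g⁻¹ = ((w ^ k : Z) : G) * (g * ((w ^ k : Z) : G) * g⁻¹)⁻¹ := h3
  calc α g = (α g * g⁻¹) * g := by group
    _ = ((w ^ k : Z) : G) * (g * ((w ^ k : Z) : G) * g⁻¹)⁻¹ * g := by rw [h4]
    _ = _ := by group

end Cfsg.Agent.H27.InnerCocycle
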